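import Mathlib
import Cfsg.Agent.H325.Same.ExcPair
import Cfsg.Agent.H325.Same.ExcPair8
import Cfsg.Agent.H325.Same.ExcReg

/-!
# Simple groups of Lie type in characteristic `p` whose order divides the order of `E6`, `2E6`, `E8` over `p^f`,
one-prime versions (helper72)

The lemmas `charp_*` of `H325/Same` with ONE primitive prime divisor of each of the two classes
(`H1 p f e c : ∃ s, Prim p (f * e) s ∧ s ∣ c`) in place of all of them.
-/

set_option autoImplicit false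

namespace Cfsg.Agent.H72.Same

open Cfsg.Agent.OrdDiv Cfsg.Agent.H436 Cfsg.Agent.H915.GN Cfsg.Agent.H264.GN Cfsg.Agent.H264.FKS
open Cfsg.Agent.H325.Same

variable {p f c : ℕ} {g : Grp}

/-- one primitive prime of `p ^ (f * e) - 1` divides `c` -/
def H1 (p f e c : ℕ) : Prop := ∃ s, Prim p (f * e) s ∧ s ∣ c

/-- comparison of exponents from one prime -/
theorem comp2o {f₁ : ℕ} (hp : p.Prime) (hf : 1 ≤ f) {XT X Y : ℕ → Prop} {MT aT M a e : ℕ}
    (hT : TD p f c XT MT aT) (hK : KD p f₁ c X Y M a) (hf₁ : 1 ≤ f₁) (h7 : 7 ≤ e) (h2 : MT < 2 * e)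
    (hs : H1 p f e c) (hY : Y M) :
    ∃ i, XT i ∧ e ≤ i ∧ f₁ * M = f * i ∧ a * i ≤ aT * M ∧
      (∀ xT, H1 p f xT c → ∃ x, X x ∧ xT * M ∣ i * x) ∧
      (∀ k, Y k → 3 ≤ f₁ * k → ¬ (p = 2 ∧ f₁ * k = 6) → ∃ j, XT j ∧ i * k ∣ M * j) := by
  have hfe : 1 * e ≤ f * e := Nat.mul_le_mul_right _ hf
  obtain ⟨s, hs', hsc⟩ := hs
  obtain ⟨x, hx, hx2⟩ := hK.exp hs' hsc
  have hx3 := hK.le hx
  have h1 : f * e ≤ f₁ * M :=
    (Nat.le_of_dvd (Nat.mul_pos (by omega) (by omega)) hx2).trans (Nat.mul_le_mul_left _ hx3.2)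
  obtain ⟨t, ht⟩ := exists_prim (e := f₁ * M) hp.two_le (by omega) (by omega)
  obtain ⟨i, hi, k, hk⟩ := hT.exp ht (hK.has hY (by omega) ht)
  have hi3 := hT.le hi
  have hk1 : k = 1 := by
    rcases Nat.lt_or_ge k 2 with h | h
    · interval_cases k
      · exfalso
        rw [mul_zero] at hk
        have : 0 < f * i := Nat.mul_pos (by omega) (by omega)
        omega
      · rfl
    · exfalso
      have h3 : f₁ * M * 2 ≤ f₁ * M * k := Nat.mul_le_mul_left _ h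
      have h4 : f * i ≤ f * MT := Nat.mul_le_mul_left _ hi3.2
      have h5 : f * (MT + 1) ≤ f * (2 * e) := Nat.mul_le_mul_left _ (by omega)
      have h6 : f * (2 * e) = 2 * (f * e) := by ring
      have h8 : f * (MT + 1) = f * MT + f := by ring
      omega
  rw [hk1, mul_one] at hk
  have hfM : f₁ * M = f * i := hk.symm
  have hei : e ≤ i := by
    have h3 : f * e ≤ f * i := by omega
    exact Nat.le_of_mul_le_mul_left h3 (by omega)
  refine ⟨i, hi, hei, hfM, ?_, fun xT hs2 => ?_, fun e' he h3' h6' => ?_⟩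
  · have h2 := hT.pp hK.pp
    have h4 : f * (a * i) ≤ f * (aT * M) := by
      calc f * (a * i) = (f * i) * a := by ring
        _ = (f₁ * M) * a := by rw [hfM]
        _ = (f₁ * a) * M := by ring
        _ ≤ (f * aT) * M := Nat.mul_le_mul_right _ h2
        _ = f * (aT * M) := by ring
    exact Nat.le_of_mul_le_mul_left h4 (by omega)
  · obtain ⟨s, hs', hsc'⟩ := hs2
    obtain ⟨x, hx, k, hk⟩ := hK.exp hs' hsc'
    refine ⟨x, hx, ?_⟩
    refine Nat.dvd_of_mul_dvd_mul_left (show 0 < f by omega) ⟨k, ?_⟩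
    calc f * (i * x) = (f * i) * x := by ring
      _ = (f₁ * M) * x := by rw [hfM]
      _ = (f₁ * x) * M := by ring
      _ = f * xT * k * M := by rw [hk]
      _ = f * (xT * M) * k := by ring
  · obtain ⟨t, ht⟩ := exists_prim hp.two_le h3' h6'
    obtain ⟨j, hj, k, hk⟩ := hT.exp ht (hK.has he h3' ht)
    refine ⟨j, hj, ?_⟩
    refine Nat.dvd_of_mul_dvd_mul_left (show 0 < f₁ by omega) ⟨k, ?_⟩
    calc f₁ * (M * j) = (f₁ * M) * j := by ring
      _ = (f * i) * j := by rw [hfM]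
      _ = (f * j) * i := by ring
      _ = f₁ * e' * k * i := by rw [hk]
      _ = f₁ * (i * e') * k := by ring

/-- `compP` with one prime of each class -/
theorem compPo {XT : ℕ → Prop} {MT aT e1 e2 f₁ : ℕ} (hp : p.Prime) (hf : 1 ≤ f)
    (hf₁ : 1 ≤ f₁) (hK : KD p f₁ c (Xg g) (Yg g) (Mg g) (ag g)) (hY : Yg g (Mg g))
    (hT : TD p f c XT MT aT) (h7 : 7 ≤ e2) (h2 : MT < 2 * e2)
    (hs1 : H1 p f e1 c) (hs2 : H1 p f e2 c) :
    ∃ i, XT i ∧ e2 ≤ i ∧ f₁ * Mg g = f * i ∧ ag g * i ≤ aT * Mg g ∧ (∃ x, Xg g x ∧ e1 * Mg g ∣ i * x) ∧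
      (∃ x, Xg g x ∧ e2 * Mg g ∣ i * x) ∧
      (∀ k, (k = 4 ∨ k = 5 ∨ 7 ≤ k) → Yg g k → ∃ j, XT j ∧ i * k ∣ Mg g * j) := by
  obtain ⟨i, hi, hei, hfM, ha, hX, hYc⟩ := comp2o hp hf hT hK hf₁ h7 h2 hs2 hY
  refine ⟨i, hi, hei, hfM, ha, hX e1 hs1, hX e2 hs2, fun k hk hYk => hYc k hYk ?_ ?_⟩
  · have : 1 * k ≤ f₁ * k := Nat.mul_le_mul_right _ hf₁
    omega
  · rintro ⟨-, h⟩
    have h8 : k ∣ 6 := ⟨f₁, by rw [← h, mul_comm]⟩
    have h9 := Nat.le_of_dvd (by norm_num) h8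
    rcases hk with rfl | rfl | hk
    · exact absurd h8 (by norm_num)
    · exact absurd h8 (by norm_num)
    · omega

/-- **`E_6(q)`, one prime of class 5 and all primes of class 9 (order of `q`).** -/
theorem e6_59 (hp : p.Prime) (hf : 1 ≤ f) (hg : Cond g) (hch : HasChar p g)
    (hc : den g * c = num g) (hdvd : c ∣ num (.e6 (p ^ f))) (hs1 : H1 p f 5 c) (hs2 : HT p f 9 g c) :
    g = .e6 (p ^ f) := by
  obtain ⟨f₁, hf₁, hfl, hK, hY⟩ := kd_all hp hg hch hc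
  have hM2 := two_le_Mg hg hch
  have hb := f1_le2 (e := 9) hp hf (td_e6 hp hf hdvd) hK hY hM2 (by norm_num) (by omega)
  have hs2' : H1 p f 9 c := by
    obtain ⟨s, hs⟩ := exists_prim (q := p) (e := f * 9) hp.two_le (by omega) (by omega)
    refine ⟨s, hs, hs2.mem hp hfl (prim_pow hf hs) fun hd => ?_⟩
    have h3 := lt_of_prim hs
    have := Nat.le_of_dvd (by omega) hd
    omega
  obtain ⟨i, hi, hei, hfM, h2, h1, h3, hYc⟩ := compPo hp hf hf₁ hK hY (td_e6 hp hf hdvd)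
    (by norm_num) (by norm_num) hs1 hs2'
  rcases elimP_e6_5_9 hg hch hi hei h2 h1 h3 hYc with ⟨rfl, q, rfl⟩ | ⟨rfl, q, rfl⟩
  · exfalso
    obtain rfl : q = p ^ f₁ := hfl
    have h5 : f₁ * 18 = f * 9 := hfM
    have h6 : f = 2 * f₁ := by omega
    have hq₁ : 2 ≤ p ^ f₁ := hp.two_le.trans (Nat.le_self_pow (by omega) _)
    obtain ⟨s, hs0⟩ := exists_prim (q := p) (e := f₁ * 9) hp.two_le (by omega) (by omega)
    have hs := prim_pow hf₁ hs0
    have hlt : f₁ < s := by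
      have := lt_of_prim hs0
      omega
    have hs' : Prim (p ^ f) 9 s := by
      have := Cfsg.Agent.H425.Chr.prim_quot (f := 2) (by norm_num) hs
      rw [← pow_mul, mul_comm f₁ 2, ← h6] at this
      exact this
    have h7 := hs2.mem hp rfl hs' (fun h => by
      have := Nat.le_of_dvd (by omega) h
      omega)
    have h8 : s ∣ num (.te6 (p ^ f₁)) := by
      rw [← hc]
      exact h7.mul_left _
    exact not_dvd_te6 hs h8
  · obtain rfl : q = p ^ f₁ := hfl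
    rw [same_fld (M := 12) (by norm_num) hfM]

/-- **`E_6(q)`, classes 8 and 9.** -/
theorem charp_e6_89 (hp : p.Prime) (hf : 1 ≤ f) (hg : Cond g) (hch : HasChar p g)
    (hc : den g * c = num g) (hdvd : c ∣ num (.e6 (p ^ f))) (hs1 : H1 p f 8 c) (hs2 : H1 p f 9 c) :
    g = .e6 (p ^ f) := by
  obtain ⟨f₁, hf₁, hfl, hK, hY⟩ := kd_all hp hg hch hc
  obtain ⟨i, hi, hei, hfM, h2, h1, h3, hYc⟩ := compPo hp hf hf₁ hK hY (td_e6 hp hf hdvd)
    (by norm_num) (by norm_num) hs1 hs2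
  rcases elimP_e6_8_9 hg hch hi hei h2 h1 h3 hYc with ⟨rfl, q, rfl⟩
  obtain rfl : q = p ^ f₁ := hfl
  rw [same_fld (M := 12) (by norm_num) hfM]

/-- **`²E_6(q)`, classes 8 and 18.** -/
theorem charp_te6_818 (hp : p.Prime) (hf : 1 ≤ f) (hg : Cond g) (hch : HasChar p g)
    (hc : den g * c = num g) (hdvd : c ∣ num (.te6 (p ^ f))) (hs1 : H1 p f 8 c) (hs2 : H1 p f 18 c) :
    g = .te6 (p ^ f) := by
  obtain ⟨f₁, hf₁, hfl, hK, hY⟩ := kd_all hp hg hch hc
  obtain ⟨i, hi, hei, hfM, h2, h1, h3, hYc⟩ := compPo hp hf hf₁ hK hY (td_te6 hp hf hdvd)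
    (by norm_num) (by norm_num) hs1 hs2
  rcases elimP_te6_8_18 hg hch hi hei h2 h1 h3 hYc with ⟨rfl, q, rfl⟩
  obtain rfl : q = p ^ f₁ := hfl
  rw [same_fld (M := 18) (by norm_num) hfM]

/-- **`²E_6(q)`, classes 10 and 18.** -/
theorem charp_te6_1018 (hp : p.Prime) (hf : 1 ≤ f) (hg : Cond g) (hch : HasChar p g)
    (hc : den g * c = num g) (hdvd : c ∣ num (.te6 (p ^ f))) (hs1 : H1 p f 10 c) (hs2 : H1 p f 18 c) :
    g = .te6 (p ^ f) := by
  obtain ⟨f₁, hf₁, hfl, hK, hY⟩ := kd_all hp hg hch hc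
  obtain ⟨i, hi, hei, hfM, h2, h1, h3, hYc⟩ := compPo hp hf hf₁ hK hY (td_te6 hp hf hdvd)
    (by norm_num) (by norm_num) hs1 hs2
  rcases elimP_te6_10_18 hg hch hi hei h2 h1 h3 hYc with ⟨rfl, q, rfl⟩
  obtain rfl : q = p ^ f₁ := hfl
  rw [same_fld (M := 18) (by norm_num) hfM]

/-- **`E_8(q)`, classes 20 and 24.** -/
theorem charp_e8_2024 (hp : p.Prime) (hf : 1 ≤ f) (hg : Cond g) (hch : HasChar p g)
    (hc : den g * c = num g) (hdvd : c ∣ num (.e8 (p ^ f))) (hs1 : H1 p f 20 c) (hs2 : H1 p f 24 c) :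
    g = .e8 (p ^ f) := by
  obtain ⟨f₁, hf₁, hfl, hK, hY⟩ := kd_all hp hg hch hc
  obtain ⟨i, hi, hei, hfM, h2, h1, h3, hYc⟩ := compPo hp hf hf₁ hK hY (td_e8 hp hf hdvd)
    (by norm_num) (by norm_num) hs1 hs2
  rcases elimP_e8_20_24 hg hch hi hei h2 h1 h3 hYc with ⟨rfl, q, rfl⟩
  obtain rfl : q = p ^ f₁ := hfl
  rw [same_fld (M := 30) (by norm_num) hfM]

/-- **`E_6(q)`, classes 9 and 12.** -/
theorem charp_e6_reg (hp : p.Prime) (hf : 1 ≤ f) (hg : Cond g) (hch : HasChar p g)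
    (hc : den g * c = num g) (hdvd : c ∣ num (.e6 (p ^ f))) (hs : H1 p f 12 c) (hs1 : H1 p f 9 c) :
    g = .e6 (p ^ f) ∨ g = .psl 4 (p ^ (3 * f)) ∨ ∃ f₁, 2 * f₁ = 3 * f ∧ g = .ominus 4 (p ^ f₁) := by
  obtain ⟨f₁, hf₁, hfl, hK, hY⟩ := kd_all hp hg hch hc
  obtain ⟨i, hi, hei, hfM, h2, h3, -, -⟩ := compPo hp hf hf₁ hK hY (td_e6 hp hf hdvd)
    (by norm_num) (by norm_num) hs1 hs
  have hi' : i ∈ [2, 5, 6, 8, 9, 12] := hi
  obtain rfl : i = 12 := by
    simp only [List.mem_cons, List.not_mem_nil, or_false] at hi'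
    omega
  have h1 := hfM
  have hO := elimR_e6 hg hch (by omega) h3
  have hp0 : 0 < p := hp.pos
  cases g
  case psl m q =>
    obtain rfl : m = 4 := hO
    obtain rfl : q = p ^ f₁ := hfl
    have h5 : f₁ * 4 = f * 12 := h1
    obtain rfl : f₁ = 3 * f := by omega
    exact Or.inr (Or.inl rfl)
  case psp m q =>
    exfalso
    obtain rfl : m = 4 := hO
    obtain rfl : q = p ^ f₁ := hfl
    have h5 : f₁ * (2 * 4) = f * 12 := h1
    exact kill_e6 hp hf (Nat.gcd_pos_of_pos_left _ (by norm_num))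
      ((Nat.gcd_le_left (p ^ f₁ - 1) (show 0 < 2 by norm_num)).trans (by norm_num)) (pow_pos (pow_pos hp0 _) _)
      (by omega) (hc : Nat.gcd 2 (p ^ f₁ - 1) * c = (p ^ f₁) ^ (4 ^ 2) * prB (p ^ f₁) 4) hdvd
  case oodd m q =>
    exfalso
    obtain rfl : m = 4 := hO
    obtain rfl : q = p ^ f₁ := hfl
    have h5 : f₁ * (2 * 4) = f * 12 := h1
    exact kill_e6 (D := 2) hp hf (by norm_num) (by norm_num) (pow_pos (pow_pos hp0 _) _)
      (by omega) (hc : 2 * c = (p ^ f₁) ^ (4 ^ 2) * prB (p ^ f₁) 4) hdvd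
  case oplus m q =>
    exfalso
    obtain rfl : m = 5 := hO
    obtain rfl : q = p ^ f₁ := hfl
    have h5 : f₁ * (2 * (5 - 1)) = f * 12 := h1
    have hc' : Nat.gcd 4 ((p ^ f₁) ^ 5 - 1) * c = (p ^ f₁) ^ (5 * (5 - 1)) * (((p ^ f₁) ^ 5 - 1) * prB (p ^ f₁) (5 - 1)) :=
      hc
    rw [← mul_assoc] at hc'
    exact kill_e6 hp hf (Nat.gcd_pos_of_pos_left _ (by norm_num))
      (Nat.gcd_le_left ((p ^ f₁) ^ 5 - 1) (show 0 < 4 by norm_num))
      (Nat.mul_pos (pow_pos (pow_pos hp0 _) _) (sub_pos' (hp.two_le.trans (Nat.le_self_pow (by omega) _)) (by norm_num)))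
      (by omega) hc' hdvd
  case ominus m q =>
    obtain rfl : m = 4 := hO
    obtain rfl : q = p ^ f₁ := hfl
    have h5 : f₁ * (2 * 4) = f * 12 := h1
    exact Or.inr (Or.inr ⟨f₁, by omega, rfl⟩)
  case e6 q =>
    obtain rfl : q = p ^ f₁ := hfl
    have h5 : f₁ * 12 = f * 12 := h1
    obtain rfl : f₁ = f := by omega
    exact Or.inl rfl
  all_goals exact absurd hO not_false

/-- **`²E_6(q)`, classes 12 and 18.** -/
theorem charp_te6_reg (hp : p.Prime) (hf : 1 ≤ f) (hg : Cond g) (hch : HasChar p g)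
    (hc : den g * c = num g) (hdvd : c ∣ num (.te6 (p ^ f))) (hs : H1 p f 18 c) (hs1 : H1 p f 12 c) :
    g = .te6 (p ^ f) ∨ g = .psu 4 (p ^ (3 * f)) := by
  obtain ⟨f₁, hf₁, hfl, hK, hY⟩ := kd_all hp hg hch hc
  obtain ⟨i, hi, hei, hfM, h2, h3, -, -⟩ := compPo hp hf hf₁ hK hY (td_te6 hp hf hdvd)
    (by norm_num) (by norm_num) hs1 hs
  have hi' : i ∈ [2, 10, 6, 8, 18, 12] := hi
  obtain rfl : i = 18 := by
    simp only [List.mem_cons, List.not_mem_nil, or_false] at hi'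
    omega
  have h1 := hfM
  have hO := elimR_te6 hg hch (by omega) h3
  have hq : 2 ≤ p ^ f := hp.two_le.trans (Nat.le_self_pow (by omega) _)
  obtain ⟨s, hs0⟩ := exists_prim (q := p ^ f) (e := 9) hq (by norm_num) (by omega)
  have hn : ¬ s ∣ c := fun h => not_dvd_te6 hs0 (h.trans hdvd)
  cases g
  case psl m q =>
    exfalso
    obtain rfl : m = 3 := hO
    obtain rfl : q = p ^ f₁ := hfl
    have h5 : f₁ * 3 = f * 18 := h1
    have h6 := Cfsg.Agent.H425.Chr.prim_quot (f := 6) (by norm_num) hs0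
    rw [← pow_mul, show f * 6 = f₁ by omega] at h6
    exact hn (psl_prim (e := 3) le_rfl le_rfl hc h6)
  case psp m q =>
    exfalso
    obtain rfl : m = 3 := hO
    obtain rfl : q = p ^ f₁ := hfl
    have h5 : f₁ * (2 * 3) = f * 18 := h1
    have h6 := Cfsg.Agent.H425.Chr.prim_quot (f := 3) (by norm_num) hs0
    rw [← pow_mul, show f * 3 = f₁ by omega] at h6
    exact hn (psp_prim (e := 3) 3 (by norm_num) le_rfl (by norm_num) le_rfl hc h6)
  case oodd m q =>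
    exfalso
    obtain rfl : m = 3 := hO
    obtain rfl : q = p ^ f₁ := hfl
    have h5 : f₁ * (2 * 3) = f * 18 := h1
    have h6 := Cfsg.Agent.H425.Chr.prim_quot (f := 3) (by norm_num) hs0
    rw [← pow_mul, show f * 3 = f₁ by omega] at h6
    exact hn (oodd_prim (e := 3) 3 (by norm_num) le_rfl (by norm_num) le_rfl hc h6)
  case psu m q =>
    obtain rfl : m = 4 := hO
    obtain rfl : q = p ^ f₁ := hfl
    have h5 : f₁ * 6 = f * 18 := h1
    obtain rfl : f₁ = 3 * f := by omega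
    exact Or.inr rfl
  case oplus m q =>
    exfalso
    obtain rfl : m = 4 := hO
    obtain rfl : q = p ^ f₁ := hfl
    have h5 : f₁ * (2 * (4 - 1)) = f * 18 := h1
    have h6 := Cfsg.Agent.H425.Chr.prim_quot (f := 3) (by norm_num) hs0
    rw [← pow_mul, show f * 3 = f₁ by omega] at h6
    exact hn (oplus_prim (e := 3) 3 (by norm_num) (by norm_num) (by norm_num) le_rfl hc h6)
  case f4 q =>
    exfalso
    obtain rfl : q = p ^ f₁ := hfl
    have h5 : f₁ * 12 = f * 18 := h1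
    apply hn
    have h7 : 1 * c = (p ^ f₁) ^ 24 * (((p ^ f₁) ^ 2 - 1) * ((p ^ f₁) ^ 6 - 1) * ((p ^ f₁) ^ 8 - 1) *
      ((p ^ f₁) ^ 12 - 1)) := hc
    rw [one_mul] at h7
    rw [h7]
    have h8 : (p ^ f₁) ^ 6 = (p ^ f) ^ 9 := sq_eq (k := 3) (by omega)
    rw [h8]
    exact (hs0.dvd dvd_rfl).trans (((Dvd.intro_left _ rfl).trans ((Dvd.intro _ rfl).trans (Dvd.intro _ rfl))).mul_left _)
  case te6 q =>
    obtain rfl : q = p ^ f₁ := hfl
    have h5 : f₁ * 18 = f * 18 := h1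
    obtain rfl : f₁ = f := by omega
    exact Or.inl rfl
  all_goals exact absurd hO not_false

end Cfsg.Agent.H72.Same
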