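import Mathlib
import Cfsg.Agent.H72.Same.One
import Cfsg.Agent.H325.Same.ExcCov7
import Cfsg.Agent.H325.Same.ExcCov8

/-!
# Simple groups of Lie type in characteristic `p` whose order divides the order of `E6`, `2E6`, `E7`, `E8` over `p^f`,
one-prime versions, second part (helper72)

Copies of lemmas of helper325 (`H325/Same`), one primitive prime divisor of each class.
-/

set_option autoImplicit false

namespace Cfsg.Agent.H72.Same

open Cfsg.Agent.OrdDiv Cfsg.Agent.H436 Cfsg.Agent.H915.GN Cfsg.Agent.H264.GN Cfsg.Agent.H264.FKS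
open Cfsg.Agent.H325.Same

variable {p f c : ℕ} {g : Grp}

theorem kill_uo {n e f₁ : ℕ} (hf : 1 ≤ f) (he : e % 2 = 1) (he3 : 2 ≤ e) (hn : n < 2 * e)
    (h1 : f₁ = f) (hc : den (.psu n (p ^ f₁)) * c = num (.psu n (p ^ f₁))) (hs : H1 p f e c) : False := by
  subst h1
  obtain ⟨s, hs0, hsc⟩ := hs
  have hs' := prim_pow hf hs0
  have h3 : s ∣ num (.psu n (p ^ f₁)) := by
    rw [← hc]
    exact hsc.mul_left _
  exact not_dvd_u hs' he he3 hn _ h3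

/-- the orthogonal groups of minus type contain no primes of odd order `e`, `m ≤ e` -/
theorem kill_omo {n e f₁ : ℕ} (hf : 1 ≤ f) (he : e % 2 = 1) (he3 : 2 ≤ e) (hn : n ≤ e)
    (h1 : f₁ = f) (hc : den (.ominus n (p ^ f₁)) * c = num (.ominus n (p ^ f₁))) (hs : H1 p f e c) : False := by
  subst h1
  obtain ⟨s, hs0, hsc⟩ := hs
  have hs' := prim_pow hf hs0
  have h3 : s ∣ num (.ominus n (p ^ f₁)) := by
    rw [← hc]
    exact hsc.mul_left _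
  have h4 : s ∣ (p ^ f₁) ^ (n * (n - 1)) * (((p ^ f₁) ^ n + 1) * prB (p ^ f₁) (n - 1)) := h3
  rcases hs'.prime.dvd_mul.1 h4 with h5 | h5
  · exact hs'.not_dvd_pow _ h5
  rcases hs'.prime.dvd_mul.1 h5 with h5 | h5
  · exact not_dvd_add_odd hs' he he3 _ h5
  rw [prB_eq, Prime.dvd_finsetProd_iff hs'.prime.prime] at h5
  obtain ⟨i, hi, hd⟩ := h5
  rw [Finset.mem_range] at hi
  rw [hs'.dvd_iff] at hd
  obtain ⟨k, hk⟩ := hd
  rcases Nat.lt_or_ge k 2 with h4 | h4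
  · interval_cases k
    · omega
    · omega
  · have : e * 2 ≤ e * k := Nat.mul_le_mul_left _ h4
    omega

/-- **`E_7(q)`, classes 7 and 18.** -/
theorem charp_e7_718 (hp : p.Prime) (hf : 1 ≤ f) (hg : Cond g) (hch : HasChar p g)
    (hc : den g * c = num g) (hdvd : c ∣ num (.e7 (p ^ f))) (hs1 : H1 p f 7 c) (hs2 : H1 p f 18 c) :
    g = .e7 (p ^ f) := by
  obtain ⟨f₁, hf₁, hfl, hK, hY⟩ := kd_all hp hg hch hc
  obtain ⟨i, hi, hei, hfM, h2, h1, h3, hYc⟩ := compPo hp hf hf₁ hK hY (td_e7 hp hf hdvd)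
    (by norm_num) (by norm_num) hs1 hs2
  rcases elimP_e7_7_18 hg hch hi hei h2 h1 h3 hYc with ⟨rfl, q, rfl⟩ | ⟨rfl, q, rfl⟩ | ⟨rfl, q, rfl⟩
  · exfalso
    obtain rfl : q = p ^ f₁ := hfl
    exact kill_uo hf rfl (by norm_num) (by norm_num) (same_fld (M := 18) (by norm_num) hfM) hc hs1
  · exfalso
    obtain rfl : q = p ^ f₁ := hfl
    exact kill_uo hf rfl (by norm_num) (by norm_num) (same_fld (M := 18) (by norm_num) hfM) hc hs1
  · obtain rfl : q = p ^ f₁ := hfl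
    rw [same_fld (M := 18) (by norm_num) hfM]

/-- **`E_7(q)`, classes 9 and 14.** -/
theorem charp_e7_914 (hp : p.Prime) (hf : 1 ≤ f) (hg : Cond g) (hch : HasChar p g)
    (hc : den g * c = num g) (hdvd : c ∣ num (.e7 (p ^ f))) (hs1 : H1 p f 9 c) (hs2 : H1 p f 14 c) :
    g = .e7 (p ^ f) := by
  obtain ⟨f₁, hf₁, hfl, hK, hY⟩ := kd_all hp hg hch hc
  obtain ⟨i, hi, hei, hfM, h2, h1, h3, hYc⟩ := compPo hp hf hf₁ hK hY (td_e7 hp hf hdvd)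
    (by norm_num) (by norm_num) hs1 hs2
  rcases elimP_e7_9_14 hg hch hi hei h2 h1 h3 hYc with ⟨rfl, q, rfl⟩ | ⟨rfl, q, rfl⟩ | ⟨rfl, q, rfl⟩
  · exfalso
    obtain rfl : q = p ^ f₁ := hfl
    exact kill_uo hf rfl (by norm_num) (by norm_num) (same_fld (M := 18) (by norm_num) hfM) hc hs1
  · exfalso
    obtain rfl : q = p ^ f₁ := hfl
    exact kill_uo hf rfl (by norm_num) (by norm_num) (same_fld (M := 18) (by norm_num) hfM) hc hs1
  · obtain rfl : q = p ^ f₁ := hfl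
    rw [same_fld (M := 18) (by norm_num) hfM]

/-- **`E_6(q)`, classes 8 and 12.** -/
theorem charp_e6_812 (hp : p.Prime) (hf : 1 ≤ f) (hg : Cond g) (hch : HasChar p g)
    (hc : den g * c = num g) (hdvd : c ∣ num (.e6 (p ^ f))) (hs1 : H1 p f 8 c) (hs2 : H1 p f 12 c) :
    g = .e6 (p ^ f) ∨ g = .f4 (p ^ f) ∨ g = .psl 3 (p ^ (4 * f)) := by
  obtain ⟨f₁, hf₁, hfl, hK, hY⟩ := kd_all hp hg hch hc
  obtain ⟨i, hi, hei, hfM, h2, h1, h3, hYc⟩ := compPo hp hf hf₁ hK hY (td_e6 hp hf hdvd)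
    (by norm_num) (by norm_num) hs1 hs2
  have hq : 2 ≤ p ^ f := hp.two_le.trans (Nat.le_self_pow (by omega) _)
  obtain ⟨s, hs4⟩ := exists_prim (q := p ^ f) (e := 4) hq (by norm_num) (by omega)
  have hd0 : c ∣ (p ^ f) ^ 36 * (((p ^ f) ^ 2 - 1) * ((p ^ f) ^ 5 - 1) * ((p ^ f) ^ 6 - 1) *
      ((p ^ f) ^ 8 - 1) * ((p ^ f) ^ 9 - 1) * ((p ^ f) ^ 12 - 1)) := hdvd
  have hd : c ∣ (p ^ f) ^ 36 * ((((p ^ f) ^ 2 - 1) * ((p ^ f) ^ 5 - 1) * ((p ^ f) ^ 6 - 1) * ((p ^ f) ^ 9 - 1)) *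
      (((p ^ f) ^ 8 - 1) * ((p ^ f) ^ 12 - 1))) := hd0.trans (dvd_of_eq (by ring))
  have b2 := sub_pos' (d := 2) hq (by norm_num)
  have b5 := sub_pos' (d := 5) hq (by norm_num)
  have b6 := sub_pos' (d := 6) hq (by norm_num)
  have b9 := sub_pos' (d := 9) hq (by norm_num)
  have hy0 : 0 < ((p ^ f) ^ 2 - 1) * ((p ^ f) ^ 5 - 1) * ((p ^ f) ^ 6 - 1) * ((p ^ f) ^ 9 - 1) := by positivity
  have hy : ¬ s ∣ ((p ^ f) ^ 2 - 1) * ((p ^ f) ^ 5 - 1) * ((p ^ f) ^ 6 - 1) * ((p ^ f) ^ 9 - 1) := fun h => by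
    rcases hs4.prime.dvd_mul.1 h with h | h
    · rcases hs4.prime.dvd_mul.1 h with h | h
      · rcases hs4.prime.dvd_mul.1 h with h | h
        · exact hs4.not_dvd_sub (by norm_num) h
        · exact hs4.not_dvd_sub (by norm_num) h
      · exact hs4.not_dvd_sub (by norm_num) h
    · exact hs4.not_dvd_sub (by norm_num) h
  rcases elimP_e6_8_12 hg hch hi hei h2 h1 h3 hYc with ⟨rfl, q, rfl⟩ | ⟨rfl, q, rfl⟩ | ⟨rfl, q, rfl⟩ |
    ⟨rfl, q, rfl⟩ | ⟨rfl, q, rfl⟩ | ⟨rfl, q, rfl⟩ | ⟨rfl, q, rfl⟩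
  · left
    obtain rfl : q = p ^ f₁ := hfl
    rw [same_fld (M := 12) (by norm_num) hfM]
  · right; left
    obtain rfl : q = p ^ f₁ := hfl
    rw [same_fld (M := 12) (by norm_num) hfM]
  · right; right
    obtain rfl : q = p ^ f₁ := hfl
    have h5 : f₁ * 3 = f * 12 := hfM
    obtain rfl : f₁ = 4 * f := by omega
    rfl
  · exfalso
    obtain rfl : q = p ^ f₁ := hfl
    have h5 : f₁ * (2 * 3) = f * 12 := hfM
    obtain rfl : f₁ = f * 2 := by omega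
    exact kill4_psp hp hf hs4 hy hy0 hd hc
  · exfalso
    obtain rfl : q = p ^ f₁ := hfl
    have h5 : f₁ * (2 * 3) = f * 12 := hfM
    obtain rfl : f₁ = f * 2 := by omega
    exact kill4_oodd hp hf hs4 hy hy0 hd hc
  · exfalso
    obtain rfl : q = p ^ f₁ := hfl
    have h5 : f₁ * 6 = f * 12 := hfM
    obtain rfl : f₁ = f * 2 := by omega
    exact kill4_psu hp hf hs4 hy hy0 hd hc
  · exfalso
    obtain rfl : q = p ^ f₁ := hfl
    have h5 : f₁ * (2 * (4 - 1)) = f * 12 := hfM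
    obtain rfl : f₁ = f * 2 := by omega
    exact kill4_oplus hp hf hs4 hy hy0 hd hc

/-- **`²E_6(q)`, classes 8 and 12.** -/
theorem charp_te6_812 (hp : p.Prime) (hf : 1 ≤ f) (hg : Cond g) (hch : HasChar p g)
    (hc : den g * c = num g) (hdvd : c ∣ num (.te6 (p ^ f))) (hs1 : H1 p f 8 c) (hs2 : H1 p f 12 c) :
    g = .te6 (p ^ f) ∨ g = .f4 (p ^ f) ∨ g = .psl 3 (p ^ (4 * f)) := by
  obtain ⟨f₁, hf₁, hfl, hK, hY⟩ := kd_all hp hg hch hc
  obtain ⟨i, hi, hei, hfM, h2, h1, h3, hYc⟩ := compPo hp hf hf₁ hK hY (td_te6 hp hf hdvd)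
    (by norm_num) (by norm_num) hs1 hs2
  have hq : 2 ≤ p ^ f := hp.two_le.trans (Nat.le_self_pow (by omega) _)
  obtain ⟨t, hs0⟩ := exists_prim (q := p ^ f) (e := 5) hq (by norm_num) (by omega)
  have hn : ¬ t ∣ c := fun h => not_dvd_te6_5 hs0 (h.trans hdvd)
  obtain ⟨s, hs4⟩ := exists_prim (q := p ^ f) (e := 4) hq (by norm_num) (by omega)
  have hd0 : c ∣ (p ^ f) ^ 36 * (((p ^ f) ^ 2 - 1) * ((p ^ f) ^ 5 + 1) * ((p ^ f) ^ 6 - 1) *
      ((p ^ f) ^ 8 - 1) * ((p ^ f) ^ 9 + 1) * ((p ^ f) ^ 12 - 1)) := hdvd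
  have hd : c ∣ (p ^ f) ^ 36 * ((((p ^ f) ^ 2 - 1) * ((p ^ f) ^ 10 - 1) * ((p ^ f) ^ 6 - 1) * ((p ^ f) ^ 18 - 1)) *
      (((p ^ f) ^ 8 - 1) * ((p ^ f) ^ 12 - 1))) := by
    refine hd0.trans (Nat.mul_dvd_mul_left _ ?_)
    have e : (((p ^ f) ^ 2 - 1) * ((p ^ f) ^ 5 + 1) * ((p ^ f) ^ 6 - 1) *
      ((p ^ f) ^ 8 - 1) * ((p ^ f) ^ 9 + 1) * ((p ^ f) ^ 12 - 1)) = (((p ^ f) ^ 2 - 1) * ((p ^ f) ^ 5 + 1) *
      ((p ^ f) ^ 6 - 1) * ((p ^ f) ^ 9 + 1)) * (((p ^ f) ^ 8 - 1) * ((p ^ f) ^ 12 - 1)) := by ring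
    rw [e]
    refine Nat.mul_dvd_mul_right ?_ _
    exact Nat.mul_dvd_mul (Nat.mul_dvd_mul_right (Nat.mul_dvd_mul_left _ (add_dvd (p ^ f) 5)) _) (add_dvd (p ^ f) 9)
  have b2 := sub_pos' (d := 2) hq (by norm_num)
  have b10 := sub_pos' (d := 10) hq (by norm_num)
  have b6 := sub_pos' (d := 6) hq (by norm_num)
  have b18 := sub_pos' (d := 18) hq (by norm_num)
  have hy0 : 0 < ((p ^ f) ^ 2 - 1) * ((p ^ f) ^ 10 - 1) * ((p ^ f) ^ 6 - 1) * ((p ^ f) ^ 18 - 1) := by positivity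
  have hy : ¬ s ∣ ((p ^ f) ^ 2 - 1) * ((p ^ f) ^ 10 - 1) * ((p ^ f) ^ 6 - 1) * ((p ^ f) ^ 18 - 1) := fun h => by
    rcases hs4.prime.dvd_mul.1 h with h | h
    · rcases hs4.prime.dvd_mul.1 h with h | h
      · rcases hs4.prime.dvd_mul.1 h with h | h
        · exact hs4.not_dvd_sub (by norm_num) h
        · exact hs4.not_dvd_sub (by norm_num) h
      · exact hs4.not_dvd_sub (by norm_num) h
    · exact hs4.not_dvd_sub (by norm_num) h
  rcases elimP_te6_8_12 hg hch hi hei h2 h1 h3 hYc with ⟨rfl, q, rfl⟩ | ⟨rfl, q, rfl⟩ | ⟨rfl, q, rfl⟩ |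
    ⟨rfl, q, rfl⟩ | ⟨rfl, q, rfl⟩ | ⟨rfl, q, rfl⟩ | ⟨rfl, q, rfl⟩ | ⟨rfl, q, rfl⟩ | ⟨rfl, q, rfl⟩ | ⟨rfl, q, rfl⟩ |
    ⟨rfl, q, rfl⟩ | ⟨rfl, q, rfl⟩
  · left
    obtain rfl : q = p ^ f₁ := hfl
    rw [same_fld (M := 18) (by norm_num) hfM]
  · right; left
    obtain rfl : q = p ^ f₁ := hfl
    rw [same_fld (M := 12) (by norm_num) hfM]
  · right; right
    obtain rfl : q = p ^ f₁ := hfl
    have h5 : f₁ * 3 = f * 12 := hfM
    obtain rfl : f₁ = 4 * f := by omega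
    rfl
  · exfalso
    obtain rfl : q = p ^ f₁ := hfl
    have h5 : f₁ * (2 * 3) = f * 12 := hfM
    obtain rfl : f₁ = f * 2 := by omega
    exact kill4_psp hp hf hs4 hy hy0 hd hc
  · exfalso
    obtain rfl : q = p ^ f₁ := hfl
    have h5 : f₁ * (2 * 3) = f * 12 := hfM
    obtain rfl : f₁ = f * 2 := by omega
    exact kill4_oodd hp hf hs4 hy hy0 hd hc
  · exfalso
    obtain rfl : q = p ^ f₁ := hfl
    have h5 : f₁ * 6 = f * 12 := hfM
    obtain rfl : f₁ = f * 2 := by omega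
    exact kill4_psu hp hf hs4 hy hy0 hd hc
  · exfalso
    obtain rfl : q = p ^ f₁ := hfl
    have h5 : f₁ * (2 * (4 - 1)) = f * 12 := hfM
    obtain rfl : f₁ = f * 2 := by omega
    exact kill4_oplus hp hf hs4 hy hy0 hd hc
  · exfalso
    obtain rfl : q = p ^ f₁ := hfl
    have h5 : f₁ * 6 = f * 12 := hfM
    have h6 := Cfsg.Agent.H425.Chr.prim_quot (f := 2) (by norm_num) hs0
    rw [← pow_mul, show f * 2 = f₁ by omega] at h6
    exact hn (psl_prim (e := 5) (by norm_num) (by norm_num) hc h6)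
  · exfalso
    obtain rfl : q = p ^ f₁ := hfl
    have h5 : f₁ * (2 * 6) = f * 12 := hfM
    obtain rfl : f₁ = f := by omega
    exact hn (psp_prim (e := 5) 5 (by norm_num) (by norm_num) (by norm_num) (by norm_num) hc hs0)
  · exfalso
    obtain rfl : q = p ^ f₁ := hfl
    have h5 : f₁ * (2 * 6) = f * 12 := hfM
    obtain rfl : f₁ = f := by omega
    exact hn (oodd_prim (e := 5) 5 (by norm_num) (by norm_num) (by norm_num) (by norm_num) hc hs0)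
  · exfalso
    obtain rfl : q = p ^ f₁ := hfl
    have h5 : f₁ * (2 * 6) = f * 12 := hfM
    obtain rfl : f₁ = f := by omega
    exact hn (ominus_prim 5 (by norm_num) (by norm_num) (by norm_num) (by norm_num) hc hs0)
  · exfalso
    obtain rfl : q = p ^ f₁ := hfl
    obtain rfl := same_fld (M := 12) (by norm_num) hfM
    have h6 : Nat.gcd 3 (p ^ f₁ - 1) * c = (p ^ f₁) ^ 36 * (((p ^ f₁) ^ 2 - 1) * ((p ^ f₁) ^ 5 - 1) * ((p ^ f₁) ^ 6 - 1) *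
      ((p ^ f₁) ^ 8 - 1) * ((p ^ f₁) ^ 9 - 1) * ((p ^ f₁) ^ 12 - 1)) := hc
    have h7 : t ∣ Nat.gcd 3 (p ^ f₁ - 1) * c := by
      rw [h6]
      exact ((((((hs0.dvd dvd_rfl).mul_left _).mul_right _).mul_right _).mul_right _).mul_right _).mul_left _
    rcases hs0.prime.dvd_mul.1 h7 with h | h
    · have h8 := Nat.le_of_dvd (by norm_num) (h.trans (Nat.gcd_dvd_left _ _))
      have := lt_of_prim hs0
      omega
    · exact hn h

/-- **`E_7(q)`, classes 14 and 18.** -/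
theorem charp_e7_1418 (hp : p.Prime) (hf : 1 ≤ f) (hg : Cond g) (hch : HasChar p g)
    (hc : den g * c = num g) (hdvd : c ∣ num (.e7 (p ^ f))) (hs1 : H1 p f 14 c) (hs2 : H1 p f 18 c) :
    g = .psu 9 (p ^ f) ∨ g = .psu 10 (p ^ f) ∨ g = .e7 (p ^ f) := by
  obtain ⟨f₁, hf₁, hfl, hK, hY⟩ := kd_all hp hg hch hc
  obtain ⟨i, hi, hei, hfM, h2, h1, h3, hYc⟩ := compPo hp hf hf₁ hK hY (td_e7 hp hf hdvd)
    (by norm_num) (by norm_num) hs1 hs2
  rcases elimP_e7_14_18 hg hch hi hei h2 h1 h3 hYc with ⟨rfl, q, rfl⟩ | ⟨rfl, q, rfl⟩ | ⟨rfl, q, rfl⟩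
  · obtain rfl : q = p ^ f₁ := hfl
    rw [same_fld (M := 18) (by norm_num) hfM]
    exact Or.inl rfl
  · obtain rfl : q = p ^ f₁ := hfl
    rw [same_fld (M := 18) (by norm_num) hfM]
    exact Or.inr (Or.inl rfl)
  · obtain rfl : q = p ^ f₁ := hfl
    rw [same_fld (M := 18) (by norm_num) hfM]
    exact Or.inr (Or.inr rfl)

/-- **`E_7(q)`, classes 9 and 18, and one prime of class 5.** -/
theorem charp_e7_918 (hp : p.Prime) (hf : 1 ≤ f) (hg : Cond g) (hch : HasChar p g)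
    (hc : den g * c = num g) (hdvd : c ∣ num (.e7 (p ^ f))) (hs0 : H1 p f 5 c)
    (hs1 : H1 p f 9 c) (hs2 : H1 p f 18 c) :
    g = .e7 (p ^ f) := by
  obtain ⟨f₁, hf₁, hfl, hK, hY⟩ := kd_all hp hg hch hc
  obtain ⟨i, hi, hei, hfM, h2, h1, h3, hYc⟩ := compPo hp hf hf₁ hK hY (td_e7 hp hf hdvd)
    (by norm_num) (by norm_num) hs0 hs2
  rcases elimP_e7_5_18 hg hch hi hei h2 h1 h3 hYc with ⟨rfl, q, rfl⟩ | ⟨rfl, q, rfl⟩ | ⟨rfl, q, rfl⟩ | ⟨rfl, q, rfl⟩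
  · exfalso
    obtain rfl : q = p ^ f₁ := hfl
    exact kill_uo hf rfl (by norm_num) (by norm_num) (same_fld (M := 18) (by norm_num) hfM) hc hs1
  · exfalso
    obtain rfl : q = p ^ f₁ := hfl
    exact kill_uo hf rfl (by norm_num) (by norm_num) (same_fld (M := 18) (by norm_num) hfM) hc hs1
  · exfalso
    obtain rfl : q = p ^ f₁ := hfl
    obtain rfl := same_fld (M := 18) (by norm_num) hfM
    obtain ⟨s, hsp, hsc⟩ := hs1
    have hs' := prim_pow hf hsp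
    refine not_dvd_te6 hs' ?_
    rw [← hc]
    exact hsc.mul_left _
  · obtain rfl : q = p ^ f₁ := hfl
    rw [same_fld (M := 18) (by norm_num) hfM]

/-- **`E_7(q)`, classes 7 and 14, and one prime of class 5.** -/
theorem charp_e7_714 (hp : p.Prime) (hf : 1 ≤ f) (hg : Cond g) (hch : HasChar p g)
    (hc : den g * c = num g) (hdvd : c ∣ num (.e7 (p ^ f))) (hs0 : H1 p f 5 c)
    (hs1 : H1 p f 7 c) (hs2 : H1 p f 14 c) :
    g = .e7 (p ^ f) := by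
  obtain ⟨f₁, hf₁, hfl, hK, hY⟩ := kd_all hp hg hch hc
  obtain ⟨i, hi, hei, hfM, h2, h1, h3, hYc⟩ := compPo hp hf hf₁ hK hY (td_e7 hp hf hdvd)
    (by norm_num) (by norm_num) hs0 hs2
  obtain ⟨t, ht⟩ := exists_prim (q := p) (e := f * 4) hp.two_le (by omega) (by omega)
  have hs4 : Prim (p ^ f) 4 t := prim_pow hf ht
  rcases elimP_e7_5_14 hg hch hi hei h2 h1 h3 hYc with ⟨rfl, q, rfl⟩ | ⟨rfl, q, rfl⟩ | ⟨rfl, q, rfl⟩ | ⟨rfl, q, rfl⟩ |
    ⟨rfl, q, rfl⟩ | ⟨rfl, q, rfl⟩ | ⟨rfl, q, rfl⟩ | ⟨rfl, q, rfl⟩ | ⟨rfl, q, rfl⟩ | ⟨rfl, q, rfl⟩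
  · exfalso
    obtain rfl : q = p ^ f₁ := hfl
    have h5 : f₁ * 7 = f * 14 := hfM
    obtain rfl : f₁ = f * 2 := by omega
    exact kill4_e7_psl hp hf hs4 hdvd hc
  · exfalso
    obtain rfl : q = p ^ f₁ := hfl
    have h5 : f₁ * (2 * 7) = f * 14 := hfM
    obtain rfl : f₁ = f := by omega
    exact kill4_e7_psp hp hf hs4 hdvd hc
  · exfalso
    obtain rfl : q = p ^ f₁ := hfl
    have h5 : f₁ * (2 * 7) = f * 14 := hfM
    obtain rfl : f₁ = f := by omega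
    exact kill4_e7_oodd hp hf hs4 hdvd hc
  · exfalso
    obtain rfl : q = p ^ f₁ := hfl
    exact kill_uo hf rfl (by norm_num) (by norm_num) (same_fld (M := 14) (by norm_num) hfM) hc hs1
  · exfalso
    obtain rfl : q = p ^ f₁ := hfl
    exact kill_uo hf rfl (by norm_num) (by norm_num) (same_fld (M := 14) (by norm_num) hfM) hc hs1
  · exfalso
    obtain rfl : q = p ^ f₁ := hfl
    have h5 : f₁ * (2 * (8 - 1)) = f * 14 := hfM
    obtain rfl : f₁ = f := by omega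
    exact kill4_e7_oplus hp hf hs4 hdvd hc
  · exfalso
    obtain rfl : q = p ^ f₁ := hfl
    exact kill_omo hf rfl (by norm_num) (by norm_num) (same_fld (M := 14) (by norm_num) hfM) hc hs1
  · exfalso
    obtain rfl : q = p ^ f₁ := hfl
    exact kill_uo hf rfl (by norm_num) (by norm_num) (same_fld (M := 18) (by norm_num) hfM) hc hs1
  · exfalso
    obtain rfl : q = p ^ f₁ := hfl
    exact kill_uo hf rfl (by norm_num) (by norm_num) (same_fld (M := 18) (by norm_num) hfM) hc hs1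
  · obtain rfl : q = p ^ f₁ := hfl
    rw [same_fld (M := 18) (by norm_num) hfM]

/-- **`E_8(q)`, classes 24 and 30.** -/
theorem charp_e8_2430 (hp : p.Prime) (hf : 1 ≤ f) (hg : Cond g) (hch : HasChar p g)
    (hc : den g * c = num g) (hdvd : c ∣ num (.e8 (p ^ f))) (hs1 : H1 p f 24 c) (hs2 : H1 p f 30 c) :
    g = .psl 5 (p ^ (f * 6)) ∨ g = .psp 5 (p ^ (f * 3)) ∨ g = .oodd 5 (p ^ (f * 3)) ∨ g = .oplus 6 (p ^ (f * 3)) ∨
      g = .ominus 5 (p ^ (f * 3)) ∨ g = .e8 (p ^ f) := by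
  obtain ⟨f₁, hf₁, hfl, hK, hY⟩ := kd_all hp hg hch hc
  obtain ⟨i, hi, hei, hfM, h2, h1, h3, hYc⟩ := compPo hp hf hf₁ hK hY (td_e8 hp hf hdvd)
    (by norm_num) (by norm_num) hs1 hs2
  rcases elimP_e8_24_30 hg hch hi hei h2 h1 h3 hYc with ⟨rfl, q, rfl⟩ | ⟨rfl, q, rfl⟩ | ⟨rfl, q, rfl⟩ | ⟨rfl, q, rfl⟩ |
    ⟨rfl, q, rfl⟩ | ⟨rfl, q, rfl⟩
  · obtain rfl : q = p ^ f₁ := hfl
    have h5 : f₁ * 5 = f * 30 := hfM
    obtain rfl : f₁ = f * 6 := by omega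
    exact Or.inl rfl
  · obtain rfl : q = p ^ f₁ := hfl
    have h5 : f₁ * (2 * 5) = f * 30 := hfM
    obtain rfl : f₁ = f * 3 := by omega
    exact Or.inr (Or.inl rfl)
  · obtain rfl : q = p ^ f₁ := hfl
    have h5 : f₁ * (2 * 5) = f * 30 := hfM
    obtain rfl : f₁ = f * 3 := by omega
    exact Or.inr (Or.inr (Or.inl rfl))
  · obtain rfl : q = p ^ f₁ := hfl
    have h5 : f₁ * (2 * (6 - 1)) = f * 30 := hfM
    obtain rfl : f₁ = f * 3 := by omega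
    exact Or.inr (Or.inr (Or.inr (Or.inl rfl)))
  · obtain rfl : q = p ^ f₁ := hfl
    have h5 : f₁ * (2 * 5) = f * 30 := hfM
    obtain rfl : f₁ = f * 3 := by omega
    exact Or.inr (Or.inr (Or.inr (Or.inr (Or.inl rfl))))
  · obtain rfl : q = p ^ f₁ := hfl
    rw [same_fld (M := 30) (by norm_num) hfM]
    exact Or.inr (Or.inr (Or.inr (Or.inr (Or.inr rfl))))

/-- **`E_8(q)`, classes 20 and 30.** -/
theorem charp_e8_2030 (hp : p.Prime) (hf : 1 ≤ f) (hg : Cond g) (hch : HasChar p g)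
    (hc : den g * c = num g) (hdvd : c ∣ num (.e8 (p ^ f))) (hs1 : H1 p f 20 c) (hs2 : H1 p f 30 c) :
    g = .psl 3 (p ^ (f * 10)) ∨ g = .psp 3 (p ^ (f * 5)) ∨ g = .oodd 3 (p ^ (f * 5)) ∨ g = .psu 4 (p ^ (f * 5)) ∨
      g = .oplus 4 (p ^ (f * 5)) ∨ (∃ k, f = 2 * k ∧ g = .f4 (p ^ (k * 5))) ∨ g = .e8 (p ^ f) := by
  obtain ⟨f₁, hf₁, hfl, hK, hY⟩ := kd_all hp hg hch hc
  obtain ⟨i, hi, hei, hfM, h2, h1, h3, hYc⟩ := compPo hp hf hf₁ hK hY (td_e8 hp hf hdvd)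
    (by norm_num) (by norm_num) hs1 hs2
  rcases elimP_e8_20_30 hg hch hi hei h2 h1 h3 hYc with ⟨rfl, q, rfl⟩ | ⟨rfl, q, rfl⟩ | ⟨rfl, q, rfl⟩ | ⟨rfl, q, rfl⟩ |
    ⟨rfl, q, rfl⟩ | ⟨rfl, q, rfl⟩ | ⟨rfl, q, rfl⟩
  · obtain rfl : q = p ^ f₁ := hfl
    have h5 : f₁ * 3 = f * 30 := hfM
    obtain rfl : f₁ = f * 10 := by omega
    exact Or.inl rfl
  · obtain rfl : q = p ^ f₁ := hfl
    have h5 : f₁ * (2 * 3) = f * 30 := hfM
    obtain rfl : f₁ = f * 5 := by omega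
    exact Or.inr (Or.inl rfl)
  · obtain rfl : q = p ^ f₁ := hfl
    have h5 : f₁ * (2 * 3) = f * 30 := hfM
    obtain rfl : f₁ = f * 5 := by omega
    exact Or.inr (Or.inr (Or.inl rfl))
  · obtain rfl : q = p ^ f₁ := hfl
    have h5 : f₁ * 6 = f * 30 := hfM
    obtain rfl : f₁ = f * 5 := by omega
    exact Or.inr (Or.inr (Or.inr (Or.inl rfl)))
  · obtain rfl : q = p ^ f₁ := hfl
    have h5 : f₁ * (2 * (4 - 1)) = f * 30 := hfM
    obtain rfl : f₁ = f * 5 := by omega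
    exact Or.inr (Or.inr (Or.inr (Or.inr (Or.inl rfl))))
  · obtain rfl : q = p ^ f₁ := hfl
    have h5 : f₁ * 12 = f * 30 := hfM
    refine Or.inr (Or.inr (Or.inr (Or.inr (Or.inr (Or.inl ⟨f / 2, by omega, ?_⟩)))))
    rw [show f₁ = f / 2 * 5 by omega]
  · obtain rfl : q = p ^ f₁ := hfl
    rw [same_fld (M := 30) (by norm_num) hfM]
    exact Or.inr (Or.inr (Or.inr (Or.inr (Or.inr (Or.inr rfl)))))

end Cfsg.Agent.H72.Same
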